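import Mathlib

/-!
Groups with isomorphic power graphs have the same prime graph.
-/

set_option autoImplicit false
set_option linter.unusedSectionVars false
set_option linter.style.haveILetI false

namespace Cfsg.Agent.Lib.PG

open Subgroup

/-! ### Numerics -/

/-- Two different primes. -/
def TwoPrimes (n : ℕ) : Prop := ∃ r s : ℕ, r.Prime ∧ s.Prime ∧ r ≠ s ∧ r ∣ n ∧ s ∣ n

/-- Comparable for divisibility. -/
def cmpN (a b : ℕ) : Prop := a ∣ b ∨ b ∣ a

lemma chain_of_not_two {m : ℕ} (hm : m ≠ 0) (h : ¬ TwoPrimes m) {a b : ℕ} (ha : a ∣ m) (hb : b ∣ m) : cmpN a b := by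
  by_cases h1 : m = 1
  · subst h1
    left
    rw [Nat.dvd_one.mp ha]
    exact one_dvd _
  obtain ⟨r, hr, hrm⟩ := Nat.exists_prime_and_dvd h1
  have h2 : m = r ^ m.primeFactorsList.length := by
    apply Nat.eq_prime_pow_of_unique_prime_dvd hm
    intro d hd hdm
    by_contra hne
    exact h ⟨d, r, hd, hr, hne, hdm, hrm⟩
  rw [h2] at ha hb
  obtain ⟨i, _, rfl⟩ := (Nat.dvd_prime_pow hr).1 ha
  obtain ⟨j, _, rfl⟩ := (Nat.dvd_prime_pow hr).1 hb
  rcases le_total i j with hij | hij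
  · exact Or.inl (pow_dvd_pow _ hij)
  · exact Or.inr (pow_dvd_pow _ hij)

lemma prime_pow_of_not_two {m : ℕ} (hm : m ≠ 0) (h1 : m ≠ 1) (h : ¬ TwoPrimes m) :
    ∃ r a : ℕ, r.Prime ∧ a ≠ 0 ∧ m = r ^ a := by
  obtain ⟨r, hr, hrm⟩ := Nat.exists_prime_and_dvd h1
  have h2 : m = r ^ m.primeFactorsList.length := by
    apply Nat.eq_prime_pow_of_unique_prime_dvd hm
    intro d hd hdm
    by_contra hne
    exact h ⟨d, r, hd, hr, hne, hdm, hrm⟩
  refine ⟨r, _, hr, ?_, h2⟩
  intro h0
  rw [h0, pow_zero] at h2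
  exact h1 h2

/-- A divisor comparable with all divisors. -/
lemma exists_incomparable {μ δ : ℕ} (hμ : μ ≠ 0) (h2 : TwoPrimes μ) (hδ : δ ∣ μ) (h1 : δ ≠ 1) (hne : δ ≠ μ) :
    ∃ D, D ∣ μ ∧ ¬ cmpN δ D := by
  obtain ⟨k, hk⟩ := hδ
  have hδ0 : δ ≠ 0 := by
    rintro rfl
    simp at hk
    exact hμ hk
  have hk1 : k ≠ 1 := by
    rintro rfl
    exact hne (by simp [hk])
  obtain ⟨r, hr, hrk⟩ := Nat.exists_prime_and_dvd hk1
  have hrd : r * δ ∣ μ := by
    rw [hk, mul_comm δ k]
    exact Nat.mul_dvd_mul_right hrk δ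
  let A := r ^ μ.factorization r
  have hA : A ∣ μ := Nat.ordProj_dvd μ r
  have hnA : ¬ A ∣ δ := by
    intro hd
    have h3 : r ^ μ.factorization r * r ∣ μ := by
      apply dvd_trans _ hrd
      rw [mul_comm]
      exact Nat.mul_dvd_mul_left r hd
    rw [← pow_succ] at h3
    have h4 := (Nat.Prime.pow_dvd_iff_le_factorization hr hμ).mp h3
    omega
  by_cases hd : δ ∣ A
  · obtain ⟨b, _, hb⟩ := (Nat.dvd_prime_pow hr).1 hd
    have hb0 : b ≠ 0 := by
      rintro rfl
      exact h1 (by simpa using hb)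
    obtain ⟨r', s', hr', hs', hne', h3, h4⟩ := h2
    obtain ⟨s, hs, hsr, hsμ⟩ : ∃ s, s.Prime ∧ s ≠ r ∧ s ∣ μ := by
      by_cases he : r' = r
      · exact ⟨s', hs', fun h => hne' (he.trans h.symm), h4⟩
      · exact ⟨r', hr', he, h3⟩
    refine ⟨s, hsμ, ?_⟩
    rintro (h5 | h5)
    · rw [hb] at h5
      have := (Nat.prime_dvd_prime_iff_eq hr hs).mp ((dvd_pow_self r hb0).trans h5)
      exact hsr this.symm
    · rw [hb] at h5
      have := (Nat.prime_dvd_prime_iff_eq hs hr).mp (hs.dvd_of_dvd_pow h5)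
      exact hsr this
  · exact ⟨A, hA, fun h => h.elim hd hnA⟩

/-- Divisors with the same comparabilities coincide. -/
lemma exists_separating {n δ d : ℕ} (hn : n ≠ 0) (h2 : TwoPrimes n) (hδd : δ ∣ d) (hd : d ∣ n) (h1 : δ ≠ 1) (hne : δ ≠ d) :
    ∃ D, D ∣ n ∧ ¬ (cmpN δ D ↔ cmpN d D) := by
  have hd0 : d ≠ 0 := fun h => hn (by rw [h, zero_dvd_iff] at hd; exact hd)
  by_cases h3 : TwoPrimes d
  · obtain ⟨D, hD, hn1⟩ := exists_incomparable hd0 h3 hδd h1 hne
    refine ⟨D, hD.trans hd, fun h => hn1 (h.mpr (Or.inr hD))⟩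
  · have hd1 : d ≠ 1 := by
      rintro rfl
      exact h1 (Nat.dvd_one.mp hδd)
    obtain ⟨r, a, hr, ha, hda⟩ := prime_pow_of_not_two hd0 hd1 h3
    rw [hda] at hδd
    obtain ⟨b, hba, hb⟩ := (Nat.dvd_prime_pow hr).1 hδd
    have hb0 : b ≠ 0 := by
      rintro rfl
      exact h1 (by simpa using hb)
    have hbal : b < a := by
      rcases lt_or_eq_of_le hba with h | h
      · exact h
      · exact absurd (by rw [hb, hda, h]) hne
    obtain ⟨r', s', hr', hs', hne', h4, h5⟩ := h2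
    obtain ⟨s, hs, hsr, hsn⟩ : ∃ s, s.Prime ∧ s ≠ r ∧ s ∣ n := by
      by_cases he : r' = r
      · exact ⟨s', hs', fun h => hne' (he.trans h.symm), h5⟩
      · exact ⟨r', hr', he, h4⟩
    have hcop : Nat.Coprime s δ := by
      rw [hb]
      exact Nat.Coprime.pow_right _ ((Nat.coprime_primes hs hr).mpr hsr)
    have hδn : δ ∣ n := hδd.trans (hda ▸ hd)
    refine ⟨s * δ, Nat.Coprime.mul_dvd_of_dvd_of_dvd hcop hsn hδn, fun h => ?_⟩
    have h6 := h.mp (Or.inl (Dvd.intro_left _ rfl))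
    rcases h6 with h7 | h7
    · rw [hda, hb] at h7
      have h8 : r ^ (b + 1) ∣ s * r ^ b := (pow_dvd_pow r hbal).trans h7
      rw [pow_succ, mul_comm s] at h8
      have h9 : r ∣ s := Nat.dvd_of_mul_dvd_mul_left (pow_pos hr.pos b) h8
      exact hsr ((Nat.prime_dvd_prime_iff_eq hr hs).mp h9).symm
    · rw [hda] at h7
      have h8 : s ∣ r ^ a := (Dvd.intro _ rfl).trans h7
      exact hsr ((Nat.prime_dvd_prime_iff_eq hs hr).mp (hs.dvd_of_dvd_pow h8))

/-- Equal totients. -/
lemma eq_two_mul_of_totient_eq {d n : ℕ} (hn : n ≠ 0) (hd : d ∣ n) (hne : d ≠ n) (h : d.totient = n.totient) : n = 2 * d := by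
  obtain ⟨k, rfl⟩ := hd
  have hd0 : d ≠ 0 := by
    rintro rfl
    simp at hn
  have hk0 : k ≠ 0 := by
    rintro rfl
    simp at hn
  have h1 := Nat.totient_gcd_mul_totient_mul d k
  rw [← h] at h1
  have hpos : 0 < d.totient := Nat.totient_pos.mpr (Nat.pos_of_ne_zero hd0)
  have h2 : (Nat.gcd d k).totient = k.totient * Nat.gcd d k := by
    apply Nat.eq_of_mul_eq_mul_right hpos
    rw [h1]
    ring
  have hg : 0 < Nat.gcd d k := Nat.gcd_pos_of_pos_left _ (Nat.pos_of_ne_zero hd0)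
  have h3 : (Nat.gcd d k).totient ≤ Nat.gcd d k := Nat.totient_le _
  have hkpos : 0 < k.totient := Nat.totient_pos.mpr (Nat.pos_of_ne_zero hk0)
  have h4 : k.totient = 1 := by
    by_contra hne1
    have : 2 ≤ k.totient := by omega
    nlinarith
  rcases Nat.totient_eq_one_iff.mp h4 with rfl | rfl
  · simp at hne
  · ring

/-! ### Cyclic subgroups -/

variable {G : Type*} [Group G] [Finite G]

/-- Comparable elements. -/
def Cmp (x y : G) : Prop := x ∈ zpowers y ∨ y ∈ zpowers x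

/-- Closed neighbourhood. -/
def NN (x : G) : Set G := {y | Cmp x y}

lemma mem_NN {x y : G} : y ∈ NN x ↔ Cmp x y := Iff.rfl

lemma Cmp.symm {x y : G} (h : Cmp x y) : Cmp y x := Or.symm h

lemma Cmp.refl (x : G) : Cmp x x := Or.inl (mem_zpowers x)

lemma one_cmp (y : G) : Cmp (1 : G) y := Or.inl (one_mem _)

lemma cmp_of_zpowers_eq {x y z : G} (h : zpowers x = zpowers y) : Cmp x z ↔ Cmp y z := by
  unfold Cmp
  simp only [← zpowers_le, h]

lemma NN_eq_of_zpowers_eq {x y : G} (h : zpowers x = zpowers y) : NN x = NN y := by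
  ext z
  exact cmp_of_zpowers_eq h

/-- In a cyclic group, divisibility of orders gives containment. -/
lemma mem_zpowers_of_dvd {c y z : G} (hy : y ∈ zpowers c) (hz : z ∈ zpowers c) (h : orderOf y ∣ orderOf z) :
    y ∈ zpowers z := by
  have hc : IsOfFinOrder c := isOfFinOrder_of_finite c
  rw [← mem_powers_iff_mem_zpowers] at hy hz
  obtain ⟨a, rfl⟩ := hy
  obtain ⟨b, rfl⟩ := hz
  have hn : 0 < orderOf c := orderOf_pos c
  set n := orderOf c with hn'
  rw [orderOf_pow, orderOf_pow, ← hn'] at h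
  have hda : Nat.gcd n a ∣ n := Nat.gcd_dvd_left _ _
  have hdb : Nat.gcd n b ∣ n := Nat.gcd_dvd_left _ _
  have hdb' : Nat.gcd n b ∣ Nat.gcd n a := by
    obtain ⟨k, hk⟩ := h
    have hposa : 0 < Nat.gcd n a := Nat.gcd_pos_of_pos_left _ hn
    have hposb : 0 < Nat.gcd n b := Nat.gcd_pos_of_pos_left _ hn
    have h1 : n = Nat.gcd n a * (n / Nat.gcd n a) := (Nat.mul_div_cancel' hda).symm
    have h2 : n = Nat.gcd n b * (n / Nat.gcd n b) := (Nat.mul_div_cancel' hdb).symm
    have hpos : 0 < n / Nat.gcd n a := Nat.div_pos (Nat.le_of_dvd hn hda) hposa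
    refine ⟨k, ?_⟩
    apply Nat.eq_of_mul_eq_mul_right hpos
    rw [← h1, mul_assoc, mul_comm k, ← hk, ← h2]
  have hb : Nat.gcd n b ∣ a := hdb'.trans (Nat.gcd_dvd_right _ _)
  obtain ⟨t, ht⟩ := hb
  rw [Subgroup.mem_zpowers_iff]
  refine ⟨Nat.gcdB n b * t, ?_⟩
  have h3 : ((Nat.gcd n b : ℕ) : ℤ) = n * Nat.gcdA n b + b * Nat.gcdB n b := Nat.gcd_eq_gcd_ab n b
  have h1c : c ^ (n : ℤ) = 1 := by
    rw [zpow_natCast]
    exact pow_orderOf_eq_one c
  have h4 : (c ^ b) ^ (Nat.gcdB n b * (t : ℤ)) = c ^ ((Nat.gcd n b : ℤ) * t) := by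
    rw [h3, add_mul, zpow_add, mul_assoc (n : ℤ), zpow_mul c (n : ℤ), h1c, one_zpow, one_mul, mul_assoc (b : ℤ),
      zpow_mul c (b : ℤ), zpow_natCast]
  rw [h4, ht]
  show _ = c ^ (Nat.gcd n b * t)
  rw [← zpow_natCast, Nat.cast_mul]

lemma cmp_iff_of_mem {c y z : G} (hy : y ∈ zpowers c) (hz : z ∈ zpowers c) : Cmp y z ↔ cmpN (orderOf y) (orderOf z) := by
  constructor
  · rintro (h | h)
    · exact Or.inl (orderOf_dvd_of_mem_zpowers h)
    · exact Or.inr (orderOf_dvd_of_mem_zpowers h)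
  · rintro (h | h)
    · exact Or.inl (mem_zpowers_of_dvd hy hz h)
    · exact Or.inr (mem_zpowers_of_dvd hz hy h)

lemma zpowers_eq_of_orderOf_eq {c y z : G} (hy : y ∈ zpowers c) (hz : z ∈ zpowers c) (h : orderOf y = orderOf z) :
    zpowers y = zpowers z := by
  apply le_antisymm
  · rw [zpowers_le]
    exact mem_zpowers_of_dvd hy hz h.dvd
  · rw [zpowers_le]
    exact mem_zpowers_of_dvd hz hy h.symm.dvd

lemma exists_order_of_dvd (c : G) {D : ℕ} (hD : D ∣ orderOf c) : ∃ z ∈ zpowers c, orderOf z = D :=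
  ⟨c ^ (orderOf c / D), by
    rw [← mem_powers_iff_mem_zpowers]
    exact ⟨_, rfl⟩, orderOf_pow_orderOf_div (orderOf_pos c).ne' hD⟩

/-- An element of a cyclic group of order with two primes comparable with all elements is trivial or a generator. -/
lemma cone_in_cyclic {c y : G} (h2 : TwoPrimes (orderOf c)) (hy : y ∈ zpowers c) (h : ∀ z ∈ zpowers c, Cmp y z) :
    y = 1 ∨ zpowers y = zpowers c := by
  by_contra hn
  push Not at hn
  obtain ⟨h1, h3⟩ := hn
  have hδ1 : orderOf y ≠ 1 := fun he => h1 (orderOf_eq_one_iff.mp he)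
  have hδ2 : orderOf y ≠ orderOf c := fun he => h3 (zpowers_eq_of_orderOf_eq hy (mem_zpowers c) he)
  obtain ⟨D, hD, hD2⟩ := exists_incomparable (orderOf_pos c).ne' h2 (orderOf_dvd_of_mem_zpowers hy) hδ1 hδ2
  obtain ⟨z, hz, hzD⟩ := exists_order_of_dvd c hD
  apply hD2
  rw [← hzD]
  exact (cmp_iff_of_mem hy hz).mp (h z hz)

/-- Twins in a cyclic group. -/
lemma twins_in_cyclic {c y w : G} (h2 : TwoPrimes (orderOf c)) (hy : y ∈ zpowers c) (hw : w ∈ zpowers c)
    (hy1 : y ≠ 1) (hw1 : w ≠ 1) (h : ∀ z ∈ zpowers c, (Cmp y z ↔ Cmp w z)) : zpowers y = zpowers w := by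
  have key : ∀ {y w : G}, y ∈ zpowers c → w ∈ zpowers c → y ≠ 1 → (∀ z ∈ zpowers c, (Cmp y z ↔ Cmp w z)) →
      orderOf y ∣ orderOf w → orderOf y = orderOf w := by
    intro y w hy hw hy1 h hd
    by_contra hne
    have hδ1 : orderOf y ≠ 1 := fun he => hy1 (orderOf_eq_one_iff.mp he)
    obtain ⟨D, hD, hD2⟩ := exists_separating (orderOf_pos c).ne' h2 hd (orderOf_dvd_of_mem_zpowers hw) hδ1 hne
    obtain ⟨z, hz, hzD⟩ := exists_order_of_dvd c hD
    apply hD2
    rw [← hzD, ← cmp_iff_of_mem hy hz, ← cmp_iff_of_mem hw hz]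
    exact h z hz
  have hc : Cmp y w := ((h y hy).mp (Cmp.refl y)).symm
  apply zpowers_eq_of_orderOf_eq hy hw
  rcases (cmp_iff_of_mem hy hw).mp hc with h3 | h3
  · exact key hy hw hy1 h h3
  · exact (key hw hy hw1 (fun z hz => (h z hz).symm) h3).symm

/-! ### Top elements -/

/-- A generator of a maximal cyclic subgroup. -/
def Top (c : G) : Prop := ∀ y : G, c ∈ zpowers y → zpowers y = zpowers c

lemma exists_top (x : G) : ∃ t, x ∈ zpowers t ∧ Top t := by
  classical
  have hfin : ({y : G | x ∈ zpowers y}).Finite := Set.toFinite _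
  obtain ⟨t, ht, hmax⟩ := Set.exists_max_image _ (orderOf : G → ℕ) hfin ⟨x, mem_zpowers x⟩
  refine ⟨t, ht, fun y hy => ?_⟩
  have hle : zpowers t ≤ zpowers y := zpowers_le.mpr hy
  have hxy : x ∈ zpowers y := hle ht
  have h1 := hmax y hxy
  have h3 : orderOf t ∣ orderOf y := orderOf_dvd_of_mem_zpowers hy
  have h4 : orderOf t = orderOf y := le_antisymm (Nat.le_of_dvd (orderOf_pos y) h3) h1
  exact (zpowers_eq_of_orderOf_eq hy (mem_zpowers y) h4).symm

lemma NN_top {c : G} (hc : Top c) : NN c = (zpowers c : Set G) := by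
  ext y
  constructor
  · rintro (h | h)
    · have := hc y h
      rw [SetLike.mem_coe, ← this]
      exact mem_zpowers y
    · exact h
  · intro h
    exact Or.inr h

lemma ncard_zpowers (c : G) : ((zpowers c : Subgroup G) : Set G).ncard = orderOf c := by
  rw [← Nat.card_coe_set_eq]
  exact Nat.card_zpowers c

/-- Generators. -/
def gens (x : G) : Set G := {y | zpowers y = zpowers x}

lemma gens_sub_zpowers (x : G) : gens x ⊆ (zpowers x : Set G) := by
  intro y hy
  have hy' : zpowers y = zpowers x := hy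
  rw [SetLike.mem_coe, ← hy']
  exact mem_zpowers y

lemma ncard_gens (x : G) : (gens x).ncard = (orderOf x).totient := by
  classical
  letI : Fintype (zpowers x) := Fintype.ofFinite _
  have h1 := IsCyclic.card_orderOf_eq_totient (α := zpowers x) (d := orderOf x) (by
    rw [← Nat.card_eq_fintype_card, Nat.card_zpowers])
  rw [← h1]
  have h3 : gens x = Subtype.val '' ((Finset.univ.filter (fun a : zpowers x => orderOf a = orderOf x) : Finset (zpowers x)) : Set (zpowers x)) := by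
    ext y
    constructor
    · intro hy
      have hm := gens_sub_zpowers x hy
      refine ⟨⟨y, hm⟩, ?_, rfl⟩
      simp only [Finset.coe_filter, Finset.mem_univ, true_and, Set.mem_setOf_eq]
      rw [Subgroup.orderOf_mk]
      rw [← Nat.card_zpowers y, ← Nat.card_zpowers x, show zpowers y = zpowers x from hy]
    · rintro ⟨⟨a, ha⟩, ha2, rfl⟩
      simp only [Finset.coe_filter, Finset.mem_univ, true_and, Set.mem_setOf_eq] at ha2
      rw [Subgroup.orderOf_mk] at ha2
      exact zpowers_eq_of_orderOf_eq ha (mem_zpowers x) ha2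
  rw [h3, Set.ncard_image_of_injective _ Subtype.val_injective, Set.ncard_coe_finset]

/-- Twins. -/
def Tw (x : G) : Set G := {y | NN y = NN x}

lemma gens_sub_Tw (x : G) : gens x ⊆ Tw x := fun _ hy => NN_eq_of_zpowers_eq hy

lemma totient_le_Tw (x : G) : (orderOf x).totient ≤ (Tw x).ncard := by
  rw [← ncard_gens]
  exact Set.ncard_le_ncard (gens_sub_Tw x) (Set.toFinite _)

/-- A cone. -/
def Cone (x : G) : Prop := ∀ y, Cmp x y

lemma cone_one : Cone (1 : G) := one_cmp

lemma Tw_top {c : G} (hc : Top c) (h2 : TwoPrimes (orderOf c)) (hnc : ¬ Cone c) : Tw c = gens c := by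
  apply Set.Subset.antisymm _ (gens_sub_Tw c)
  intro y hy
  have hy' : NN y = NN c := hy
  have hm : y ∈ zpowers c := by
    have h1 : y ∈ NN y := Cmp.refl y
    rw [hy', NN_top hc] at h1
    exact h1
  have h3 : ∀ z ∈ zpowers c, Cmp y z := by
    intro z hz
    have h4 : z ∈ NN c := by
      rw [NN_top hc]
      exact hz
    rw [← hy'] at h4
    exact h4
  rcases cone_in_cyclic h2 hm h3 with rfl | h5
  · exfalso
    apply hnc
    intro z
    have h6 : z ∈ NN (1 : G) := one_cmp z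
    rw [hy'] at h6
    exact h6
  · exact h5

lemma Tw_sub {c w : G} (hc : Top c) (h2 : TwoPrimes (orderOf c)) (hw : w ∈ zpowers c) (hw1 : ¬ Cone w) :
    Tw w = gens w := by
  apply Set.Subset.antisymm _ (gens_sub_Tw w)
  intro y hy
  have hy' : NN y = NN w := hy
  have hcw : c ∈ NN w := Or.inl hw
  rw [← hy'] at hcw
  have hm : y ∈ zpowers c := by
    have h1 : y ∈ NN c := hcw.symm
    rw [NN_top hc] at h1
    exact h1
  have hy1 : y ≠ 1 := by
    rintro rfl
    apply hw1
    intro z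
    have h6 : z ∈ NN (1 : G) := one_cmp z
    rw [hy'] at h6
    exact h6
  have hw1' : w ≠ 1 := by
    rintro rfl
    exact hw1 cone_one
  exact twins_in_cyclic h2 hm hw hy1 hw1' (fun z _ => by
    have : z ∈ NN y ↔ z ∈ NN w := by rw [hy']
    exact this)

/-- Count of neighbours in the index two situation. -/
lemma ncard_inter {c w : G} (hc : Top c) (hw : w ∈ zpowers c) (h2 : orderOf c = 2 * orderOf w) :
    (NN w ∩ NN c).ncard = orderOf w + (orderOf c).totient := by
  have hne : Disjoint ((zpowers w : Subgroup G) : Set G) (gens c) := by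
    rw [Set.disjoint_left]
    intro y hy hy2
    have h3 : zpowers y = zpowers c := hy2
    have h4 : c ∈ zpowers w := by
      have : c ∈ zpowers y := by
        rw [h3]
        exact mem_zpowers c
      exact (zpowers_le.mpr hy) this
    have h5 := orderOf_dvd_of_mem_zpowers h4
    have h6 := orderOf_dvd_of_mem_zpowers hw
    have h7 := Nat.dvd_antisymm h5 h6
    have hp := orderOf_pos w
    omega
  have he : NN w ∩ NN c = ((zpowers w : Subgroup G) : Set G) ∪ gens c := by
    ext y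
    constructor
    · rintro ⟨h3, h4⟩
      rw [NN_top hc] at h4
      rcases h3 with h3 | h3
      · obtain ⟨k, hk⟩ := orderOf_dvd_of_mem_zpowers h3
        have h6 : orderOf y ∣ 2 * orderOf w := by
          rw [← h2]
          exact orderOf_dvd_of_mem_zpowers h4
        rw [hk, mul_comm 2] at h6
        have hpos : 0 < orderOf w := orderOf_pos w
        have h7 : k ∣ 2 := Nat.dvd_of_mul_dvd_mul_left hpos h6
        have h8 : k = 1 ∨ k = 2 := (Nat.dvd_prime Nat.prime_two).mp h7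
        rcases h8 with rfl | rfl
        · rw [mul_one] at hk
          exact Or.inl (mem_zpowers_of_dvd h4 hw hk.dvd)
        · right
          exact zpowers_eq_of_orderOf_eq h4 (mem_zpowers c) (by rw [hk, h2]; ring)
      · exact Or.inl h3
    · rintro (h3 | h3)
      · refine ⟨Or.inr h3, ?_⟩
        rw [NN_top hc]
        exact (zpowers_le.mpr hw) h3
      · refine ⟨Or.inl ?_, ?_⟩
        · have h4 : zpowers y = zpowers c := h3
          rw [h4]
          exact hw
        · rw [NN_top hc]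
          exact gens_sub_zpowers c h3
  rw [he, Set.ncard_union_eq hne (Set.toFinite _) (Set.toFinite _), ncard_zpowers, ncard_gens]

end Cfsg.Agent.Lib.PG
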