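import Mathlib
import Cfsg.Agent.Lib.PowerGraph.Basic

/-!
Groups with isomorphic power graphs have the same prime graph.
-/

set_option autoImplicit false
set_option linter.unusedSectionVars false
set_option linter.style.haveILetI false

namespace Cfsg.Agent.Lib.PG

open Subgroup

variable {G H : Type*} [Group G] [Finite G] [Group H] [Finite H]

lemma NN_map (e : G ≃ H) (he : ∀ x y : G, Cmp x y ↔ Cmp (e x) (e y)) (x : G) : NN (e x) = e '' NN x := by
  ext y
  constructor
  · intro h
    refine ⟨e.symm y, ?_, e.apply_symm_apply y⟩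
    show Cmp x (e.symm y)
    rw [he, e.apply_symm_apply]
    exact h
  · rintro ⟨z, hz, rfl⟩
    exact (he x z).mp hz

lemma ncard_NN (e : G ≃ H) (he : ∀ x y : G, Cmp x y ↔ Cmp (e x) (e y)) (x : G) : (NN (e x)).ncard = (NN x).ncard := by
  rw [NN_map e he, Set.ncard_image_of_injective _ e.injective]

lemma Tw_map (e : G ≃ H) (he : ∀ x y : G, Cmp x y ↔ Cmp (e x) (e y)) (x : G) : Tw (e x) = e '' Tw x := by
  ext y
  constructor
  · intro h
    refine ⟨e.symm y, ?_, e.apply_symm_apply y⟩
    show NN (e.symm y) = NN x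
    have h1 : NN y = NN (e x) := h
    apply (Set.image_injective.mpr e.injective)
    rw [← NN_map e he, ← NN_map e he, e.apply_symm_apply, h1]
  · rintro ⟨z, hz, rfl⟩
    show NN (e z) = NN (e x)
    rw [NN_map e he, NN_map e he, show NN z = NN x from hz]

lemma ncard_Tw (e : G ≃ H) (he : ∀ x y : G, Cmp x y ↔ Cmp (e x) (e y)) (x : G) : (Tw (e x)).ncard = (Tw x).ncard := by
  rw [Tw_map e he, Set.ncard_image_of_injective _ e.injective]

lemma cone_map (e : G ≃ H) (he : ∀ x y : G, Cmp x y ↔ Cmp (e x) (e y)) {x : G} (h : Cone x) : Cone (e x) := by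
  intro y
  have h1 := (he x (e.symm y)).mp (h _)
  rwa [e.apply_symm_apply] at h1

lemma cone_of_map (e : G ≃ H) (he : ∀ x y : G, Cmp x y ↔ Cmp (e x) (e y)) {x : G} (h : Cone (e x)) : Cone x := by
  intro y
  exact (he x y).mpr (h _)

theorem one_way (e : G ≃ H) (he : ∀ x y : G, Cmp x y ↔ Cmp (e x) (e y)) {p q : ℕ} (hp : p.Prime) (hq : q.Prime)
    (hpq : p ≠ q) (g : G) (hg : orderOf g = p * q) : ∃ h : H, orderOf h = p * q := by
  classical
  suffices h : ∃ b : H, p * q ∣ orderOf b by
    obtain ⟨b, hb⟩ := h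
    obtain ⟨z, _, hz⟩ := exists_order_of_dvd b hb
    exact ⟨z, hz⟩
  obtain ⟨c, hgc, htop⟩ := exists_top g
  have hd : p * q ∣ orderOf c := hg ▸ orderOf_dvd_of_mem_zpowers hgc
  have hpd : p ∣ orderOf c := (Dvd.intro _ rfl).trans hd
  have hqd : q ∣ orderOf c := (Dvd.intro_left _ rfl).trans hd
  have h2 : TwoPrimes (orderOf c) := ⟨p, q, hp, hq, hpq, hpd, hqd⟩
  have hcard : Nat.card G = Nat.card H := Nat.card_congr e
  have hdG : orderOf c ∣ Nat.card G := orderOf_dvd_natCard c
  have hc1 : c ≠ 1 := by
    rintro rfl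
    rw [orderOf_one] at hpd
    exact hp.one_lt.ne' (Nat.dvd_one.mp hpd)
  by_cases hcone : Cone c
  · obtain ⟨a, ha1, hac⟩ : ∃ a : H, a ≠ 1 ∧ Cone a := by
      by_cases h : e c = 1
      · refine ⟨e 1, ?_, cone_map e he cone_one⟩
        intro h3
        exact hc1 (e.injective (h.trans h3.symm))
      · exact ⟨e c, h, cone_map e he hcone⟩
    refine ⟨a, ?_⟩
    have key : ∀ r : ℕ, r.Prime → r ∣ Nat.card H → r ∣ orderOf a := by
      intro r hr hrd
      haveI := Fact.mk hr
      obtain ⟨y, hy⟩ := exists_prime_orderOf_dvd_card' r hrd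
      rcases hac y with h | h
      · have h3 := orderOf_dvd_of_mem_zpowers h
        rw [hy] at h3
        rcases (Nat.dvd_prime hr).mp h3 with h4 | h4
        · exact absurd (orderOf_eq_one_iff.mp h4) ha1
        · exact h4.symm.dvd
      · rw [← hy]
        exact orderOf_dvd_of_mem_zpowers h
    exact Nat.Coprime.mul_dvd_of_dvd_of_dvd ((Nat.coprime_primes hp hq).mpr hpq)
      (key p hp (hcard ▸ hpd.trans hdG)) (key q hq (hcard ▸ hqd.trans hdG))
  obtain ⟨t, hvt, httop⟩ := exists_top (e c)
  by_cases htc : Cone t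
  · refine ⟨t, ?_⟩
    have h3 : orderOf t = Nat.card H := by
      apply orderOf_eq_card_of_forall_mem_zpowers
      intro y
      rcases htc y with h | h
      · rw [← httop y h]
        exact mem_zpowers y
      · exact h
    rw [h3, ← hcard]
    exact hd.trans hdG
  have hwt : e (e.symm t) = t := e.apply_symm_apply t
  set w := e.symm t with hw
  have hwnc : ¬ Cone w := fun h => htc (hwt ▸ cone_map e he h)
  have hvnc : ¬ Cone (e c) := fun h => hcone (cone_of_map e he h)
  have hwc : w ∈ zpowers c := by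
    have h3 : Cmp (e c) (e w) := by
      rw [hwt]
      exact Or.inl hvt
    have h4 : w ∈ NN c := (he c w).mpr h3
    rw [NN_top htop] at h4
    exact h4
  by_cases hvt2 : zpowers (e c) = zpowers t
  · have hvtop : Top (e c) := by
      intro y hy
      have h3 : t ∈ zpowers y := by
        have h4 : t ∈ zpowers (e c) := by
          rw [hvt2]
          exact mem_zpowers t
        exact (zpowers_le.mpr hy) h4
      rw [httop y h3, hvt2]
    have h3 : orderOf (e c) = orderOf c := by
      have h4 := ncard_NN e he c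
      rwa [NN_top hvtop, NN_top htop, ncard_zpowers, ncard_zpowers] at h4
    exact ⟨e c, h3 ▸ hd⟩
  have hmm' : orderOf (e c) ∣ orderOf t := orderOf_dvd_of_mem_zpowers hvt
  have hv1 : e c ≠ 1 := fun h => hvnc (h ▸ cone_one)
  have hne1 : zpowers w ≠ zpowers c := by
    intro he1
    have hN : NN t = NN (e c) := by
      rw [← hwt, NN_map e he, NN_map e he, NN_eq_of_zpowers_eq he1]
    have hall : ∀ z ∈ zpowers t, Cmp (e c) z := by
      intro z hz
      have h3 : z ∈ NN t := by
        rw [NN_top httop]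
        exact hz
      rw [hN] at h3
      exact h3
    by_cases h3 : TwoPrimes (orderOf t)
    · rcases cone_in_cyclic h3 hvt hall with h | h
      · exact hv1 h
      · exact hvt2 h
    · obtain ⟨x1, hx1, ox1⟩ := exists_order_of_dvd c hpd
      obtain ⟨x2, hx2, ox2⟩ := exists_order_of_dvd c hqd
      have hmem : ∀ x ∈ zpowers c, e x ∈ zpowers t := by
        intro x hx
        have h4 : x ∈ NN c := by
          rw [NN_top htop]
          exact hx
        have h5 : e x ∈ NN (e c) := (he c x).mp h4
        rw [← hN, NN_top httop] at h5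
        exact h5
      have h4 : Cmp (e x1) (e x2) := by
        rw [cmp_iff_of_mem (hmem x1 hx1) (hmem x2 hx2)]
        exact chain_of_not_two (orderOf_pos t).ne' h3 (orderOf_dvd_of_mem_zpowers (hmem x1 hx1))
          (orderOf_dvd_of_mem_zpowers (hmem x2 hx2))
      have h5 := (cmp_iff_of_mem hx1 hx2).mp ((he x1 x2).mpr h4)
      rw [ox1, ox2] at h5
      rcases h5 with h5 | h5
      · exact hpq ((Nat.prime_dvd_prime_iff_eq hp hq).mp h5)
      · exact hpq ((Nat.prime_dvd_prime_iff_eq hq hp).mp h5).symm
  have hdn : orderOf w ∣ orderOf c := orderOf_dvd_of_mem_zpowers hwc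
  have hdne : orderOf w ≠ orderOf c := fun h => hne1 (zpowers_eq_of_orderOf_eq hwc (mem_zpowers c) h)
  have hw1 : orderOf w ≠ 1 := by
    intro h
    have h3 : w = 1 := orderOf_eq_one_iff.mp h
    exact hwnc (h3 ▸ cone_one)
  have hT1 : (Tw t).ncard = (orderOf w).totient := by
    rw [← hwt, ncard_Tw e he, Tw_sub htop h2 hwc hwnc, ncard_gens]
  have hT2 : (Tw (e c)).ncard = (orderOf c).totient := by
    rw [ncard_Tw e he, Tw_top htop h2 hcone, ncard_gens]
  have ht4 : (orderOf w).totient ≤ (orderOf c).totient :=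
    Nat.le_of_dvd (Nat.totient_pos.mpr (orderOf_pos c)) (Nat.totient_dvd_of_dvd hdn)
  by_cases h3 : TwoPrimes (orderOf t)
  · have t1 : (orderOf t).totient = (orderOf w).totient := by
      rw [← hT1, Tw_top httop h3 htc, ncard_gens]
    have t2 : (orderOf (e c)).totient = (orderOf c).totient := by
      rw [← hT2, Tw_sub httop h3 hvt hvnc, ncard_gens]
    have t3 : (orderOf (e c)).totient ≤ (orderOf t).totient :=
      Nat.le_of_dvd (Nat.totient_pos.mpr (orderOf_pos t)) (Nat.totient_dvd_of_dvd hmm')
    have e1 : (orderOf w).totient = (orderOf c).totient := by omega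
    have e2 : (orderOf (e c)).totient = (orderOf t).totient := by omega
    have hn2 : orderOf c = 2 * orderOf w := eq_two_mul_of_totient_eq (orderOf_pos c).ne' hdn hdne e1
    have hm2 : orderOf t = 2 * orderOf (e c) := eq_two_mul_of_totient_eq (orderOf_pos t).ne' hmm'
      (fun h => hvt2 (zpowers_eq_of_orderOf_eq hvt (mem_zpowers t) h)) e2
    have c1 := ncard_inter htop hwc hn2
    have c2 := ncard_inter httop hvt hm2
    have c3 : NN (e c) ∩ NN t = e '' (NN w ∩ NN c) := by
      rw [Set.image_inter e.injective, ← NN_map e he, ← NN_map e he, hwt, Set.inter_comm]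
    rw [c3, Set.ncard_image_of_injective _ e.injective, c1] at c2
    have e3 : orderOf w = orderOf (e c) := by omega
    refine ⟨t, ?_⟩
    rw [hm2, ← e3, ← hn2]
    exact hd
  · exfalso
    have h4 : (orderOf t).totient ≤ (orderOf w).totient := by
      rw [← hT1]
      exact totient_le_Tw t
    have ht1 : orderOf t ≠ 1 := by
      intro h
      have h5 : t = 1 := orderOf_eq_one_iff.mp h
      exact htc (h5 ▸ cone_one)
    obtain ⟨r, a, hr, ha, hta⟩ := prime_pow_of_not_two (orderOf_pos t).ne' ht1 h3
    have h5 : orderOf t ≤ 2 * (orderOf t).totient := by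
      rw [hta, Nat.totient_prime_pow hr (Nat.pos_of_ne_zero ha)]
      obtain ⟨a', rfl⟩ := Nat.exists_eq_succ_of_ne_zero ha
      simp only [Nat.succ_eq_add_one, Nat.add_sub_cancel, pow_succ]
      have := hr.two_le
      obtain ⟨r', rfl⟩ : ∃ r', r = r' + 2 := ⟨r - 2, by omega⟩
      have h6 : (r' + 2 - 1) = r' + 1 := by omega
      rw [h6]
      nlinarith [pow_pos (show 0 < r' + 2 by omega) a']
    have hNw : (NN w).ncard = orderOf t := by
      rw [← ncard_NN e he, hwt, NN_top httop, ncard_zpowers]
    have hsub : ((zpowers w : Subgroup G) : Set G) ∪ gens c ⊆ NN w := by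
      rintro y (hy | hy)
      · exact Or.inr hy
      · refine Or.inl ?_
        have h6 : zpowers y = zpowers c := hy
        rw [h6]
        exact hwc
    have hdisj : Disjoint ((zpowers w : Subgroup G) : Set G) (gens c) := by
      rw [Set.disjoint_left]
      intro y hy hy2
      have h6 : zpowers y = zpowers c := hy2
      apply hne1
      apply le_antisymm (zpowers_le.mpr hwc)
      rw [← h6]
      exact zpowers_le.mpr hy
    have h6 := Set.ncard_le_ncard hsub (Set.toFinite _)
    rw [Set.ncard_union_eq hdisj (Set.toFinite _) (Set.toFinite _), ncard_zpowers, ncard_gens, hNw] at h6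
    have h7 := Nat.totient_lt (orderOf w) (by
      have := orderOf_pos w
      omega)
    omega

theorem main_iff (e : G ≃ H) (he : ∀ x y : G, Cmp x y ↔ Cmp (e x) (e y)) {p q : ℕ} (hp : p.Prime) (hq : q.Prime)
    (hpq : p ≠ q) : (∃ g : G, orderOf g = p * q) ↔ (∃ h : H, orderOf h = p * q) := by
  constructor
  · rintro ⟨g, hg⟩
    exact one_way e he hp hq hpq g hg
  · rintro ⟨h, hh⟩
    refine one_way e.symm ?_ hp hq hpq h hh
    intro x y
    rw [he (e.symm x) (e.symm y), e.apply_symm_apply, e.apply_symm_apply]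

end Cfsg.Agent.Lib.PG
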